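import Cfsg.Agent.Lib.CharClifford.Extend
import Cfsg.Agent.Lib.CharClifford.Gallagher
import Cfsg.Agent.Lib.CharTools.Basic
import Cfsg.Agent.Lib.Char.Integral
import Mathlib.GroupTheory.PGroup
import Mathlib.Algebra.BigOperators.Ring.Nat

/-!
# Real extensions and linear characters of order four

If `N` has a normal complement-free odd abelianization, `P` is a Sylow 2-subgroup of `H = P N` and
`l` is a linear character of `P` that is real on `P ⊓ N`, then a real extension of a `P`-invariant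
constituent over `l|(P ⊓ N)` forces a real linear character of `P` that agrees with `l` on `P ⊓ N`.
-/

set_option autoImplicit false
set_option linter.unusedSectionVars false

open scoped ComplexConjugate

namespace Cfsg.Agent.Lib.CharTate

open Cfsg Cfsg.Agent.Lib.Char Cfsg.Agent.Lib.CharClifford

universe u

variable {G : Type u} [Group G] [Finite G]

/-- The determinant of the complex conjugate character is the inverse of the determinant. -/
theorem detChar_conj {χ : G → ℂ} (h : IsIrrCharacter G χ) (g : G) :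
    detChar (fun x => conj (χ x)) g = detChar χ g⁻¹ := by
  have hc := isIrrCharacter_conj h
  obtain ⟨n, ρ, hρ, rfl⟩ := h
  haveI := hρ
  have hd : ρ.dual.character = fun x => conj (ρ.character x) := funext fun x => by
    rw [Representation.char_dual, character_inv]
  haveI : ρ.dual.IsIrreducible := isIrreducible_of_isIrrCharacter _ (by rw [hd]; exact hc)
  rw [← hd, detChar_character ρ.dual, detChar_character ρ]
  exact LinearMap.det_dualMap _

/-- The determinant of a real irreducible character has order at most two. -/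
theorem exists_det_real {χ : G → ℂ} (h : IsIrrCharacter G χ) (hr : ∀ g, conj (χ g) = χ g) :
    ∃ d : G →* ℂˣ, (∀ g, detChar χ g = (d g : ℂ)) ∧ ∀ g, d g ^ 2 = 1 := by
  obtain ⟨n, ρ, _, _, _, hd⟩ := exists_detHom h
  refine ⟨detHom ρ, hd, fun g => ?_⟩
  have h1 := detChar_conj h g
  rw [show (fun x => conj (χ x)) = χ from funext hr, hd, hd, map_inv] at h1
  rw [sq, mul_eq_one_iff_eq_inv]
  exact Units.ext h1

/-- Parity of a sum paired by an involution. -/
theorem even_sum_of_pairs {α : Type*} [Fintype α] (f : α → ℕ) (i : α → α)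
    (hi : ∀ a, i (i a) = a) (hf : ∀ a, f (i a) = f a) (hfix : ∀ a, i a = a → Even (f a)) :
    Even (∑ a, f a) := by
  classical
  rw [← ZMod.natCast_eq_zero_iff_even, Nat.cast_sum]
  refine Finset.sum_involution (fun a _ => i a) (fun a _ => ?_) (fun a _ ha he => ha ?_)
    (fun a _ => Finset.mem_univ _) fun a _ => hi a
  · rw [hf]; exact CharTwo.add_self_eq_zero _
  · exact ZMod.natCast_eq_zero_iff_even.2 (hfix a he)

variable (N P : Subgroup G) [N.Normal]

open scoped Classical in
/-- There is a real extension with odd multiplicity. -/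
theorem exists_real_over [Fintype G] [Fintype N] (hP : IsPGroup 2 P) (hPi : Odd P.index) (hPN : P ⊔ N = ⊤)
    (hab : ∀ d : N →* ℂˣ, (∀ n, d n ^ 2 = 1) → ∀ n, d n = 1)
    (l : P →* ℂˣ) (hl : ∀ q : P, (q : G) ∈ N → l q ^ 2 = 1) [Fintype (N.subgroupOf P)] :
    ∃ (χ : G → ℂ) (m : ℕ), IsIrrCharacter G χ ∧ (∀ g, conj (χ g) = χ g) ∧ Odd m ∧
      classInner (fun q : N.subgroupOf P => χ ((q : P) : G))
        (fun q : N.subgroupOf P => (l (q : P) : ℂ)) = m := by
  haveI := Fintype.ofFinite P
  haveI : Fact (Nat.Prime 2) := ⟨Nat.prime_two⟩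
  set S := P.subgroupOf N with hS
  haveI := Fintype.ofFinite S
  let fS : S →* P :=
    { toFun := fun s => ⟨((s : N) : G), s.2⟩
      map_one' := rfl
      map_mul' := fun _ _ => rfl }
  set ℓ : S → ℂ := fun s => (l (fS s) : ℂ) with hℓ
  have hℓc : IsCharacter S ℓ :=
    isCharacter_of_isIrr (isIrrCharacter_linear (l.comp fS))
  have hℓr : ∀ s, conj (ℓ s) = ℓ s := by
    intro s
    have h := congrArg Units.val (hl (fS s) s.1.2)
    rw [Units.val_pow_eq_pow_val, Units.val_one, sq] at h
    rcases mul_self_eq_one_iff.1 h with h' | h' <;> simp [hℓ, h']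
  -- multiplicities
  have hnat : ∀ θ : IrrCharacter N, ∃ k d : ℕ, classInner (fun s : S => (θ : N → ℂ) s) ℓ = k ∧
      (θ : N → ℂ) 1 = d := fun θ => by
    obtain ⟨k, hk⟩ := classInner_natCast (isCharacter_restrict (isCharacter_of_isIrr θ.2) S) hℓc
    obtain ⟨d, hd⟩ := exists_natDegree (isCharacter_of_isIrr θ.2)
    exact ⟨k, d, hk, hd⟩
  choose k d hk hd using hnat
  -- the weighted count
  have hN0 := card_ne_zero_complex N
  have hS0 := card_ne_zero_complex S
  have hidx : S.index = P.index := by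
    have h1 : N.relIndex P = N.index := by
      rw [← Subgroup.relIndex_top_right N, ← hPN, Subgroup.relIndex_sup_right]
    have h2 := Subgroup.relIndex_mul_index (inf_le_left : P ⊓ N ≤ P)
    have h3 := Subgroup.relIndex_mul_index (inf_le_right : P ⊓ N ≤ N)
    rw [Subgroup.inf_relIndex_left, h1] at h2
    rw [Subgroup.inf_relIndex_right, ← h2, mul_comm N.index] at h3
    exact Nat.eq_of_mul_eq_mul_right (Nat.pos_of_ne_zero Subgroup.index_ne_zero_of_finite) h3
  have hsum : ∑ θ : IrrCharacter N, k θ * d θ = S.index := by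
    rw [← Nat.cast_inj (R := ℂ), Nat.cast_sum]
    simp only [Nat.cast_mul, ← hk, ← hd, classInner, mul_assoc, ← Finset.mul_sum, Finset.sum_mul]
    rw [Finset.sum_comm]
    simp only [mul_comm (conj (ℓ _)), ← mul_assoc, ← Finset.sum_mul]
    rw [Finset.sum_congr rfl fun s _ => by
      rw [Finset.sum_congr rfl fun θ _ => mul_comm ((θ : IrrCharacter N).1 ((s : S) : N)) _,
        sum_degree_mul]]
    simp only [ite_mul, zero_mul, OneMemClass.coe_eq_one, Finset.sum_ite_eq', Finset.mem_univ,
      if_true]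
    have h1 : ℓ 1 = 1 := by rw [hℓ]; simp
    rw [h1, map_one, mul_one, ← Subgroup.index_mul_card S, Nat.cast_mul]
    field_simp
  -- complex conjugation
  let cj : IrrCharacter N → IrrCharacter N := fun θ =>
    ⟨fun n => conj ((θ : N → ℂ) n), isIrrCharacter_conj θ.2⟩
  have hcj : ∀ θ, cj (cj θ) = θ := fun θ => Subtype.ext (funext fun n => Complex.conj_conj _)
  have hkc : ∀ θ, k (cj θ) * d (cj θ) = k θ * d θ := by
    intro θ
    congr 1
    · rw [← Nat.cast_inj (R := ℂ), ← hk, ← Complex.conj_natCast (k θ), ← hk]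
      simp [classInner, map_sum, cj, hℓr]
    · rw [← Nat.cast_inj (R := ℂ), ← hd, ← hd]
      simp [cj, hd]
  have hodd : Odd (∑ θ : {θ : IrrCharacter N // cj θ = θ}, k θ.1 * d θ.1) := by
    have h1 := Fintype.sum_subtype_add_sum_subtype (fun θ => cj θ = θ) fun θ => k θ * d θ
    rw [hsum, hidx] at h1
    have h2 : Even (∑ θ : {θ : IrrCharacter N // ¬ cj θ = θ}, k θ.1 * d θ.1) :=
      even_sum_of_pairs _ (fun θ => ⟨cj θ.1, fun h => θ.2 (by rw [hcj] at h; exact h.symm)⟩)
        (fun θ => Subtype.ext (hcj θ.1)) (fun θ => hkc θ.1)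
        fun θ h => absurd (congrArg Subtype.val h) θ.2
    rw [← h1, add_comm] at hPi
    exact (Nat.odd_add.1 (by rwa [add_comm] at hPi)).2 h2
  -- the action of `P`
  have hconjS : ∀ (x : P) (φ : N → ℂ),
      classInner (fun s : S => conjChar N (x : G) φ s) ℓ = classInner (fun s : S => φ s) ℓ := by
    intro x φ
    simp only [classInner]
    congr 1
    let e : S ≃ S :=
      { toFun := fun s => ⟨⟨(x : G) * ((s : N) : G) * (x : G)⁻¹,
            (inferInstance : N.Normal).conj_mem _ s.1.2 x⟩,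
          P.mul_mem (P.mul_mem x.2 s.2) (P.inv_mem x.2)⟩
        invFun := fun s => ⟨⟨(x : G)⁻¹ * ((s : N) : G) * (x : G), by
            simpa using (inferInstance : N.Normal).conj_mem _ s.1.2 (x : G)⁻¹⟩,
          P.mul_mem (P.mul_mem (P.inv_mem x.2) s.2) x.2⟩
        left_inv := fun s => Subtype.ext (Subtype.ext (by simp [mul_assoc]))
        right_inv := fun s => Subtype.ext (Subtype.ext (by simp [mul_assoc])) }
    refine Fintype.sum_equiv e _ _ fun s => ?_
    have hl' : ℓ (e s) = ℓ s := by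
      show (l (fS (e s)) : ℂ) = l (fS s)
      rw [show fS (e s) = x * fS s * x⁻¹ from rfl, map_mul, map_mul, map_inv, mul_comm (l x),
        mul_inv_cancel_right]
    rw [conjChar_apply, hl']
    rfl
  let T := {θ : IrrCharacter N // cj θ = θ ∧ Odd (k θ * d θ)}
  have hT : ∀ (x : P) (θ : T), cj ⟨_, isIrrCharacter_conjChar N (x : G) θ.1.2⟩ =
      (⟨_, isIrrCharacter_conjChar N (x : G) θ.1.2⟩ : IrrCharacter N) ∧
      Odd (k ⟨_, isIrrCharacter_conjChar N (x : G) θ.1.2⟩ *
        d ⟨_, isIrrCharacter_conjChar N (x : G) θ.1.2⟩) := by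
    intro x θ
    refine ⟨Subtype.ext (funext fun n => ?_), ?_⟩
    · show conj (conjChar N (x : G) θ.1.1 n) = conjChar N (x : G) θ.1.1 n
      rw [conjChar_apply]
      exact congrFun (congrArg Subtype.val θ.2.1) _
    · convert θ.2.2 using 2
      · rw [← Nat.cast_inj (R := ℂ), ← hk, ← hk]; exact hconjS x _
      · rw [← Nat.cast_inj (R := ℂ), ← hd, ← hd]; exact conjChar_apply_one N _ _
  letI : MulAction P T :=
    { smul := fun x θ => ⟨⟨_, isIrrCharacter_conjChar N ((x⁻¹ : P) : G) θ.1.2⟩, hT x⁻¹ θ⟩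
      one_smul := fun θ => Subtype.ext (Subtype.ext (by
        show conjChar N ((((1 : P)⁻¹ : P)) : G) θ.1.1 = θ.1.1
        simp [conjChar_one]))
      mul_smul := fun x y θ => Subtype.ext (Subtype.ext (by
        show conjChar N (((x * y)⁻¹ : P) : G) θ.1.1 =
          conjChar N ((x⁻¹ : P) : G) (conjChar N ((y⁻¹ : P) : G) θ.1.1)
        rw [← conjChar_mul]
        simp)) }
  have hTodd : Odd (Nat.card T) := by
    rw [Nat.card_eq_fintype_card, Fintype.card_subtype]
    rw [_root_.Finset.odd_sum_iff_odd_card_odd] at hodd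
    convert hodd using 1
    refine Finset.card_bij (fun θ hθ => ⟨θ, (Finset.mem_filter.1 hθ).2.1⟩) ?_ ?_ ?_
    · exact fun θ hθ => Finset.mem_filter.2 ⟨Finset.mem_univ _, (Finset.mem_filter.1 hθ).2.2⟩
    · exact fun a _ b _ h => congrArg Subtype.val h
    · exact fun b hb =>
        ⟨b.1, Finset.mem_filter.2 ⟨Finset.mem_univ _, b.2, (Finset.mem_filter.1 hb).2⟩, rfl⟩
  have hmod := hP.card_modEq_card_fixedPoints T
  obtain ⟨θ, hθfix⟩ : (MulAction.fixedPoints P T).Nonempty := by
    rw [Set.nonempty_iff_ne_empty]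
    intro h
    rw [h, Nat.card_coe_set_eq, Set.ncard_empty] at hmod
    exact Nat.not_even_iff_odd.2 hTodd (even_iff_two_dvd.2 (Nat.modEq_zero_iff_dvd.1 hmod))
  obtain ⟨hkodd, hdodd⟩ := Nat.odd_mul.1 θ.2.2
  set ψ : N → ℂ := θ.1.1 with hψ
  have hψr : ∀ n, conj (ψ n) = ψ n := fun n => congrFun (congrArg Subtype.val θ.2.1) n
  have hinv : ∀ g : G, conjChar N g ψ = ψ := by
    intro g
    have hle : P ⊔ N ≤ inertia N ψ := by
      refine sup_le (fun x hx => ?_) (le_inertia N (isClassFunction_of_isIrr θ.1.2))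
      rw [mem_inertia]
      have := congrArg (fun t : T => t.1.1) (hθfix ((⟨x, hx⟩ : P)⁻¹))
      change conjChar N ((((⟨x, hx⟩ : P)⁻¹)⁻¹ : P) : G) ψ = ψ at this
      simpa using this
    rw [hPN] at hle
    exact (mem_inertia N).1 (hle (Subgroup.mem_top g))
  -- the extension
  obtain ⟨e, he, he2⟩ := exists_det_real θ.1.2 hψr
  have hdet : ∀ n : N, ((1 : G →* ℂˣ) n : ℂ) = detChar ψ n := fun n => by
    rw [he, hab e he2 n]; rfl
  have h2 : ∃ j, N.index = 2 ^ j := by
    have h1 : N.relIndex P = N.index := by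
      rw [← Subgroup.relIndex_top_right N, ← hPN, Subgroup.relIndex_sup_right]
    obtain ⟨j, hj⟩ := IsPGroup.iff_card.1 hP
    have : N.index ∣ 2 ^ j := by
      rw [← h1, ← hj]; exact Subgroup.index_dvd_card _
    obtain ⟨i, -, hi⟩ := (Nat.dvd_prime_pow Nat.prime_two).1 this
    exact ⟨i, hi⟩
  obtain ⟨j, hj⟩ := h2
  have hcop : Nat.Coprime N.index (d θ.1) := by
    rw [hj]; exact Nat.Coprime.pow_left _ (Nat.coprime_two_left.2 hdodd)
  have hext := extends_of_det θ.1.2 hinv _ (hd θ.1) hcop 1 hdet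
  obtain ⟨χ, ⟨hχ, hres, hχdet⟩, huniq⟩ :=
    existsUnique_extension_det θ.1.2 _ (hd θ.1) hcop hext 1 hdet
  refine ⟨χ, k θ.1, hχ, fun g => congrFun (huniq _ ⟨isIrrCharacter_conj hχ,
    fun n => (congrArg conj (hres n)).trans (hψr n), funext fun x => ?_⟩) g, hkodd, ?_⟩
  · rw [detChar_conj hχ x, hχdet]; simp
  · rw [← hk θ.1]
    simp only [classInner]
    have hc : Nat.card (N.subgroupOf P) = Nat.card S :=
      Nat.card_congr
        { toFun := fun q => ⟨⟨((q : P) : G), q.2⟩, q.1.2⟩
          invFun := fun s => ⟨⟨((s : N) : G), s.2⟩, s.1.2⟩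
          left_inv := fun _ => rfl
          right_inv := fun _ => rfl }
    rw [hc]
    congr 1
    refine Fintype.sum_equiv
      { toFun := fun q => ⟨⟨((q : P) : G), q.2⟩, q.1.2⟩
        invFun := fun s => ⟨⟨((s : N) : G), s.2⟩, s.1.2⟩
        left_inv := fun _ => rfl
        right_inv := fun _ => rfl } _ _ fun q => ?_
    simp only [Equiv.coe_fn_mk, hℓ]
    rw [← hres]
    rfl

/-- A linear character of order four cannot be real on `P ⊓ N` with elementary quotient. -/
theorem sq_apply_eq_one (hP : IsPGroup 2 P) (hPi : Odd P.index) (hPN : P ⊔ N = ⊤)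
    (hab : ∀ d : N →* ℂˣ, (∀ n, d n ^ 2 = 1) → ∀ n, d n = 1)
    (l : P →* ℂˣ) (hl : ∀ q : P, (q : G) ∈ N → l q ^ 2 = 1) (x : P)
    (hx : ∀ κ : P →* ℂˣ, (∀ q : P, (q : G) ∈ N → κ q = 1) → κ (x ^ 2) = 1) :
    l (x ^ 2) = 1 := by
  classical
  by_contra hne
  haveI := Fintype.ofFinite G
  haveI := Fintype.ofFinite N
  haveI := Fintype.ofFinite P
  haveI : Fact (Nat.Prime 2) := ⟨Nat.prime_two⟩
  set Q := N.subgroupOf P with hQ
  haveI : Q.Normal := (inferInstance : N.Normal).subgroupOf P
  haveI := Fintype.ofFinite Q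
  obtain ⟨χ, m, hχ, hreal, hm, hmeq⟩ := exists_real_over N P hP hPi hPN hab l hl
  set ℓ : Q → ℂ := fun q => (l (q : P) : ℂ) with hℓ
  have hℓirr : IsIrrCharacter Q ℓ := isIrrCharacter_linear (l.comp Q.subtype)
  have hℓinv : ∀ g : P, conjChar Q g ℓ = ℓ := fun g => funext fun q => by
    rw [conjChar_apply]
    simp [hℓ, mul_comm (l g)]
  have hℓr : ∀ q, conj (ℓ q) = ℓ q := by
    intro q
    have h := congrArg Units.val (hl (q : P) q.2)
    rw [Units.val_pow_eq_pow_val, Units.val_one, sq] at h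
    rcases mul_self_eq_one_iff.1 h with h' | h' <;> simp [hℓ, h']
  set R : P → ℂ := fun p => χ p with hR
  have hRc : IsCharacter P R := isCharacter_restrict (isCharacter_of_isIrr hχ) P
  have hnat : ∀ ξ : IrrCharacter P, ∃ a b : ℕ, classInner R (ξ : P → ℂ) = a ∧
      classInner (fun q : Q => (ξ : P → ℂ) q) ℓ = b := fun ξ => by
    obtain ⟨a, ha⟩ := classInner_natCast hRc (isCharacter_of_isIrr ξ.2)
    obtain ⟨b, hb⟩ := classInner_natCast (isCharacter_restrict (isCharacter_of_isIrr ξ.2) Q)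
      (isCharacter_of_isIrr hℓirr)
    exact ⟨a, b, ha, hb⟩
  choose a b ha hb using hnat
  have hsum : m = ∑ ξ : IrrCharacter P, a ξ * b ξ := by
    rw [← Nat.cast_inj (R := ℂ), ← hmeq, Nat.cast_sum]
    simp only [Nat.cast_mul, ← ha, ← hb]
    conv_lhs => rw [show (fun q : Q => χ ((q : P) : G)) =
      ∑ ξ : IrrCharacter P, classInner R (ξ : P → ℂ) • fun q : Q => (ξ : P → ℂ) q from by
        funext q
        rw [Finset.sum_apply]
        conv_lhs => rw [show χ ((q : P) : G) = R q from rfl,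
          eq_sum_classInner_smul (isClassFunction_of_isCharacter hRc), Finset.sum_apply]
        rfl]
    rw [classInner_sum_left]
    exact Finset.sum_congr rfl fun ξ _ => classInner_smul_left _ _ _
  refine Nat.not_even_iff_odd.2 hm (hsum ▸ even_sum_of_pairs _
    (fun ξ => ⟨fun p => conj ((ξ : P → ℂ) p), isIrrCharacter_conj ξ.2⟩)
    (fun ξ => Subtype.ext (funext fun p => Complex.conj_conj _)) (fun ξ => ?_) fun ξ hfix => ?_)
  · congr 1
    · rw [← Nat.cast_inj (R := ℂ), ← ha, ← Complex.conj_natCast (a ξ), ← ha]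
      simp [classInner, map_sum, hR, hreal]
    · rw [← Nat.cast_inj (R := ℂ), ← hb, ← Complex.conj_natCast (b ξ), ← hb]
      simp [classInner, map_sum, hℓr]
  · by_contra hodd
    rw [Nat.not_even_iff_odd, Nat.odd_mul] at hodd
    have hb0 : classInner (fun q : Q => (ξ : P → ℂ) q) ℓ ≠ 0 := by
      rw [hb]; exact Nat.cast_ne_zero.2 hodd.2.pos.ne'
    have hdeg := clifford_degree Q ξ.2 hℓirr hb0
    have hI : inertia Q ℓ = ⊤ := eq_top_iff.2 fun g _ => (mem_inertia Q).2 (hℓinv g)
    rw [hI, Subgroup.index_top, Nat.cast_one, mul_one, hb, show ℓ 1 = 1 by simp [hℓ], mul_one]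
      at hdeg
    obtain ⟨j, hj⟩ := IsPGroup.iff_card.1 hP
    have hb1 : b ξ = 1 := by
      have h := irr_degree_dvd_card ξ.2 hdeg
      rw [hj] at h
      obtain ⟨i, -, hi⟩ := (Nat.dvd_prime_pow Nat.prime_two).1 h
      cases i with
      | zero => simpa using hi
      | succ i =>
        exact absurd hodd.2 (by
          rw [hi, Nat.not_odd_iff_even, pow_succ]; exact even_two.mul_left _)
    rw [hb1, Nat.cast_one] at hdeg
    obtain ⟨μ, hμ⟩ := exists_hom_of_degree_one (isCharacter_of_isIrr ξ.2) hdeg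
    have hμ2 : ∀ p, μ p ^ 2 = 1 := by
      intro p
      have h1 : conj (μ p : ℂ) = μ p := by
        have := congrFun (congrArg Subtype.val hfix) p
        simpa [hμ] using this
      refine Units.ext ?_
      rw [Units.val_pow_eq_pow_val, sq]
      conv_lhs => arg 2; rw [← h1]
      exact linear_conj_mul μ p
    have hμQ : ∀ q : P, (q : G) ∈ N → μ q = l q := by
      intro q hq
      by_contra hq'
      refine hb0 ?_
      rw [show (fun q : Q => (ξ : P → ℂ) q) = fun q : Q => ((μ.comp Q.subtype) q : ℂ) from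
        funext fun q => by simp [hμ]]
      refine classInner_irr_ne (isIrrCharacter_linear _) hℓirr fun h => hq' ?_
      exact Units.ext (congrFun h ⟨q, hq⟩)
    have h3 := hx (l / μ) fun q hq => by rw [MonoidHom.div_apply, hμQ q hq, div_self']
    rw [MonoidHom.div_apply, map_pow, map_pow, hμ2, div_one] at h3
    exact hne (by rwa [map_pow])

end Cfsg.Agent.Lib.CharTate
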